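import Mathlib

set_option autoImplicit false

namespace Cfsg.Agent.Lib.Helper52.S3C

open Equiv Equiv.Perm Subgroup MulAction

/-- the cycles of a permutation of order 3 generate a 3-group -/
theorem syl_pgroup {α : Type*} [Fintype α] [DecidableEq α] (σ : Perm α) (h3 : σ ^ 3 = 1) :
    IsPGroup 3 ↥(closure {g | ∃ x, g = σ.cycleOf x}) := by
  have key : ∀ g ∈ closure {g | ∃ x, g = σ.cycleOf x},
      (∀ y, g (σ y) = σ (g y)) ∧ ∀ y, ∃ i : ℤ, g y = (σ ^ i) y := by
    intro g hg
    induction hg using closure_induction with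
    | mem g hg =>
      obtain ⟨x, rfl⟩ := hg
      constructor
      · intro y
        rw [cycleOf_apply, cycleOf_apply]
        by_cases h : σ.SameCycle x y
        · rw [if_pos h, if_pos (sameCycle_apply_right.mpr h)]
        · rw [if_neg h, if_neg (fun h' => h (sameCycle_apply_right.mp h'))]
      · intro y
        rw [cycleOf_apply]
        split_ifs
        · exact ⟨1, by simp⟩
        · exact ⟨0, by simp⟩
    | one => exact ⟨fun y => rfl, fun y => ⟨0, by simp⟩⟩
    | mul a b _ _ ha hb =>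
      have hapow : ∀ (i : ℤ) y, a ((σ ^ i) y) = (σ ^ i) (a y) := by
        intro i y
        have hc : Commute a σ := by
          ext z; exact ha.1 z
        have := (hc.zpow_right i).eq
        exact congrArg (fun f : Perm α => f y) this
      constructor
      · intro y
        simp only [Perm.mul_apply, hb.1, ha.1]
      · intro y
        obtain ⟨i, hi⟩ := hb.2 y
        obtain ⟨j, hj⟩ := ha.2 y
        refine ⟨i + j, ?_⟩
        rw [Perm.mul_apply, hi, hapow, hj, zpow_add, Perm.mul_apply]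
    | inv a _ ha =>
      constructor
      · intro y
        apply a.injective
        rw [ha.1]
        simp
      · intro y
        obtain ⟨i, hi⟩ := ha.2 (a⁻¹ y)
        refine ⟨-i, ?_⟩
        have h1 : y = (σ ^ i) (a⁻¹ y) := by rw [← hi]; simp
        conv_rhs => rw [h1]
        simp
  intro g
  refine ⟨1, ?_⟩
  apply Subtype.ext
  obtain ⟨h1, h2⟩ := key g.1 g.2
  have hgpow : ∀ (i : ℤ) y, g.1 ((σ ^ i) y) = (σ ^ i) (g.1 y) := by
    intro i y
    have hc : Commute g.1 σ := by
      ext z; exact h1 z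
    have := (hc.zpow_right i).eq
    exact congrArg (fun f : Perm α => f y) this
  show (g.1) ^ (3 ^ 1) = 1
  ext y
  obtain ⟨i, hi⟩ := h2 y
  have e3 : (σ ^ i) ((σ ^ i) ((σ ^ i) y)) = y := by
    rw [← Perm.mul_apply, ← Perm.mul_apply, ← zpow_add, ← zpow_add]
    have : i + i + i = 3 * i := by ring
    rw [this, zpow_mul]
    have : σ ^ (3 : ℤ) = 1 := by exact_mod_cast h3
    rw [this]; simp
  have : (g.1 ^ (3 ^ 1)) y = g.1 (g.1 (g.1 y)) := by
    norm_num [pow_succ, Perm.mul_apply]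
  rw [this, hi, hgpow, hi, hgpow, hgpow, hi, e3]
  rfl

theorem syl_three {α : Type*} [Fintype α] [DecidableEq α] (σ : Perm α) (h3 : σ ^ 3 = 1) (x : α)
    (hx : σ x ≠ x) : (σ.cycleOf x).IsThreeCycle := by
  have hcyc := σ.isCycle_cycleOf hx
  have h1 : orderOf (σ.cycleOf x) ∣ 3 :=
    (orderOf_cycleOf_dvd_orderOf σ x).trans (orderOf_dvd_of_pow_eq_one h3)
  have h2 : orderOf (σ.cycleOf x) ≠ 1 := by
    intro h
    rw [orderOf_eq_one_iff] at h
    exact hcyc.ne_one h
  have h4 : orderOf (σ.cycleOf x) = 3 := by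
    rcases (Nat.dvd_prime Nat.prime_three).mp h1 with h | h
    · exact absurd h h2
    · exact h
  show (σ.cycleOf x).cycleType = {3}
  rw [hcyc.cycleType, ← hcyc.orderOf, h4]

/-- general form -/
theorem syl_gen {α : Type*} [Fintype α] [DecidableEq α] (σ : Perm α) (h3 : σ ^ 3 = 1)
    (P : Sylow 3 (Perm α)) :
    ∃ g : Perm α, ∀ y, σ y ≠ y → ∃ c ∈ (P : Subgroup (Perm α)), c.IsThreeCycle ∧ c (g y) ≠ g y := by
  have : Fact (Nat.Prime 3) := ⟨Nat.prime_three⟩
  obtain ⟨Q, hQ⟩ := (syl_pgroup σ h3).exists_le_sylow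
  obtain ⟨g, hg⟩ := MulAction.exists_smul_eq (Perm α) Q P
  refine ⟨g, fun y hy => ⟨g * σ.cycleOf y * g⁻¹, ?_, ?_, ?_⟩⟩
  · rw [← hg]
    have h1 : σ.cycleOf y ∈ (Q : Subgroup (Perm α)) := hQ (subset_closure ⟨y, rfl⟩)
    have h2 := Subgroup.smul_mem_pointwise_smul _ (MulAut.conj g) _ h1
    exact h2
  · show (g * σ.cycleOf y * g⁻¹).cycleType = {3}
    rw [cycleType_conj]
    exact syl_three σ h3 y hy
  · intro h
    apply hy
    apply g.injective
    simpa [Perm.mul_apply, cycleOf_apply_self] using h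

/-- rotation inside the blocks `{3j, 3j+1, 3j+2}` -/
def sylφ (n v : ℕ) : ℕ := if v < 3 * (n / 3) then 3 * (v / 3) + (v + 1) % 3 else v

theorem sylφ_lt {n v : ℕ} (h : v < n) : sylφ n v < n := by
  unfold sylφ; split_ifs <;> omega

theorem sylφ_three (n v : ℕ) : sylφ n (sylφ n (sylφ n v)) = v := by
  unfold sylφ; split_ifs <;> omega

theorem sylφ_ne {n v : ℕ} (h : v < 3 * (n / 3)) : sylφ n v ≠ v := by
  unfold sylφ; split_ifs; omega

def sylσ (n : ℕ) : Perm (Fin n) where
  toFun x := ⟨sylφ n x.1, sylφ_lt x.2⟩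
  invFun x := ⟨sylφ n (sylφ n x.1), sylφ_lt (sylφ_lt x.2)⟩
  left_inv x := Fin.ext (sylφ_three n x.1)
  right_inv x := Fin.ext (sylφ_three n x.1)

theorem sylσ_pow (n : ℕ) : sylσ n ^ 3 = 1 := by
  ext x
  have : (sylσ n ^ 3) x = sylσ n (sylσ n (sylσ n x)) := by
    norm_num [pow_succ, Perm.mul_apply]
  rw [this]
  exact sylφ_three n x.1

/-- [SYL] a Sylow 3-subgroup of `Sym(n)` contains 3-cycles covering all but at most 2 points. -/
theorem syl (n : ℕ) (P : Sylow 3 (Perm (Fin n))) :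
    ∃ s : Finset (Fin n), s.card ≤ 2 ∧
      ∀ x, x ∉ s → ∃ c ∈ (P : Subgroup (Perm (Fin n))), c.IsThreeCycle ∧ c x ≠ x := by
  obtain ⟨g, hg⟩ := syl_gen (sylσ n) (sylσ_pow n) P
  refine ⟨(Finset.univ.filter (fun y : Fin n => 3 * (n / 3) ≤ y.1)).image g, ?_, ?_⟩
  · refine Finset.card_image_le.trans ?_
    have : (Finset.univ.filter (fun y : Fin n => 3 * (n / 3) ≤ y.1)).card ≤
        (Finset.range 2).card := by
      refine Finset.card_le_card_of_injOn (fun y => y.1 - 3 * (n / 3)) ?_ ?_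
      · intro y hy
        have h1 : 3 * (n / 3) ≤ y.1 := by simpa using hy
        have h2 := y.2
        simp only [Finset.coe_range, Set.mem_Iio]
        omega
      · intro y hy z hz hyz
        have h1 : 3 * (n / 3) ≤ y.1 := by simpa using hy
        have h2 : 3 * (n / 3) ≤ z.1 := by simpa using hz
        apply Fin.ext
        simp only at hyz
        omega
    simpa using this
  · intro x hx
    have hy : (g⁻¹ x).1 < 3 * (n / 3) := by
      by_contra h
      apply hx
      rw [Finset.mem_image]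
      exact ⟨g⁻¹ x, by simpa using h, by simp⟩
    have h1 : sylσ n (g⁻¹ x) ≠ g⁻¹ x := by
      intro h
      exact sylφ_ne hy (congrArg Fin.val h)
    obtain ⟨c, hc, h3, hcx⟩ := hg (g⁻¹ x) h1
    refine ⟨c, hc, h3, ?_⟩
    simpa using hcx

end Cfsg.Agent.Lib.Helper52.S3C
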