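import Mathlib
import Cfsg.Agent.Lib.Helper14.S3CPRIM

set_option autoImplicit false

namespace Cfsg.Agent.Lib.Helper52.S3C

open Equiv Equiv.Perm Subgroup MulAction

theorem alt {α : Type*} [Fintype α] [DecidableEq α] (L : Subgroup (Perm α)) (c : Perm α)
    (hc : c.IsThreeCycle) (hcL : c ∈ L)
    (hL : L = closure {g | ∃ l ∈ L, g = l * c * l⁻¹}) :
    Nonempty (↥L ≃* ↥(alternatingGroup (Fin (Nat.card {x : α // ∃ l ∈ L, l x ≠ x})))) := by
  classical
  obtain ⟨a, ha⟩ : ∃ x, c x ≠ x := by
    by_contra hall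
    push Not at hall
    have : c = 1 := Equiv.ext hall
    rw [this] at hc
    exact absurd hc (by simp [IsThreeCycle])
  set p : α → Prop := fun x => ∃ l ∈ L, l x ≠ x with hp
  set T : Set (Perm α) := {g | ∃ l ∈ L, g = l * c * l⁻¹} with hT
  -- points moved by `L` lie in the orbit of `a`
  have horb : ∀ x, p x → ∃ l ∈ L, l a = x := by
    have hfix : L ≤ fixingSubgroup (Perm α) {x | ¬ ∃ l ∈ L, l a = x} := by
      conv_lhs => rw [hL]
      rw [closure_le]
      rintro _ ⟨l, hl, rfl⟩
      rw [SetLike.mem_coe, mem_fixingSubgroup_iff]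
      intro x hx
      by_contra hne
      apply hx
      have h1 : c (l⁻¹ x) ≠ l⁻¹ x := by
        intro h
        apply hne
        show (l * c * l⁻¹) x = x
        simp only [Perm.mul_apply, h]
        simp
      obtain ⟨i, hi⟩ := hc.isCycle.sameCycle ha h1
      refine ⟨l * c ^ i, mul_mem hl (zpow_mem hcL i), ?_⟩
      simp only [Perm.mul_apply, hi]
      simp
    rintro x ⟨l, hl, hlx⟩
    by_contra hx
    exact hlx ((mem_fixingSubgroup_iff _).mp (hfix hl) x hx)
  have hpa : ∀ l ∈ L, p (l a) := by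
    intro l hl
    refine ⟨l * c * l⁻¹, mul_mem (mul_mem hl hcL) (inv_mem hl), ?_⟩
    intro h
    apply ha
    apply l.injective
    simpa [Perm.mul_apply] using h
  have hinv : ∀ g ∈ L, ∀ x, p (g x) ↔ p x := by
    intro g hg x
    constructor
    · intro h
      obtain ⟨l, hl, hlx⟩ := horb _ h
      have : x = (g⁻¹ * l) a := by simp [Perm.mul_apply, hlx]
      rw [this]
      exact hpa _ (mul_mem (inv_mem hg) hl)
    · intro h
      obtain ⟨l, hl, hlx⟩ := horb _ h
      rw [← hlx, ← Perm.mul_apply]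
      exact hpa _ (mul_mem hg hl)
  have hmov : ∀ g ∈ L, ∀ x, g x ≠ x → p x := fun g hg x hx => ⟨g, hg, hx⟩
  let f : Perm (Subtype p) →* Perm α := Perm.ofSubtype
  have hf : Function.Injective f := Perm.ofSubtype_injective
  have hrange : ∀ g ∈ L, ∃ g' : Perm (Subtype p), f g' = g := fun g hg =>
    ⟨subtypePerm g (hinv g hg), ofSubtype_subtypePerm (hinv g hg) (hmov g hg)⟩
  set L' : Subgroup (Perm (Subtype p)) := L.comap f with hL'
  have hmap : L'.map f = L := by
    rw [hL', map_comap_eq, inf_eq_right]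
    intro g hg
    exact hrange g hg
  have e1 : ↥L' ≃* ↥L := (L'.equivMapOfInjective f hf).trans (MulEquiv.subgroupCongr hmap)
  set T' : Set (Perm (Subtype p)) := f ⁻¹' T with hT'
  have hTL : T ⊆ L := by
    rintro _ ⟨l, hl, rfl⟩
    exact mul_mem (mul_mem hl hcL) (inv_mem hl)
  have himg : f '' T' = T := by
    rw [hT', Set.image_preimage_eq_iff]
    intro g hg
    exact hrange g (hTL hg)
  have hcl : L' = closure T' := by
    have h1 : (closure T').map f = L := by
      rw [MonoidHom.map_closure, himg, ← hL]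
    rw [hL', ← h1, comap_map_eq_self_of_injective hf]
  have h3 : ∀ g ∈ T', g.IsThreeCycle := by
    intro g hg
    obtain ⟨l, _, hl⟩ := hg
    have h1 : (f g).cycleType = {3} := by
      rw [hl, cycleType_conj]; exact hc
    have h2 : (f g).cycleType = g.cycleType := cycleType_ofSubtype
    exact h2.symm.trans h1
  have hne : T'.Nonempty := by
    obtain ⟨c', hc'⟩ := hrange c hcL
    exact ⟨c', 1, one_mem _, by rw [hc']; simp⟩
  have htr : IsPretransitive L' (Subtype p) := by
    refine ⟨fun x y => ?_⟩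
    obtain ⟨l₁, hl₁, h1⟩ := horb x.1 x.2
    obtain ⟨l₂, hl₂, h2⟩ := horb y.1 y.2
    obtain ⟨g', hg'⟩ := hrange (l₂ * l₁⁻¹) (mul_mem hl₂ (inv_mem hl₁))
    refine ⟨⟨g', by rw [hL', mem_comap, hg']; exact mul_mem hl₂ (inv_mem hl₁)⟩, ?_⟩
    apply Subtype.ext
    show ((g' x : Subtype p) : α) = y
    have : f g' (x : α) = ((g' x : Subtype p) : α) := Perm.ofSubtype_apply_coe g' x
    rw [← this, hg', ← h1, ← h2]
    simp
  have hA := prim L' T' h3 hne hcl htr
  exact ⟨e1.symm.trans ((MulEquiv.subgroupCongr hA).trans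
    (Equiv.altCongrHom (Finite.equivFin (Subtype p))))⟩

end Cfsg.Agent.Lib.Helper52.S3C
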