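import Mathlib
import Cfsg.Prelude.Def_CaseTheorems
import Cfsg.Agent.Lib.Helper27.Quasisimple
import Cfsg.Agent.Lib.Helper76.PermSolvable

set_option autoImplicit false

namespace Cfsg.Agent.Lib.Helper52.S3C

open Equiv Equiv.Perm Subgroup MulAction

/-- [SIM] a quasisimple normal subgroup of an alternating group is everything. -/
theorem sim {X : Type*} [Group X] {β : Type*} [Fintype β] [DecidableEq β] (K L : Subgroup X)
    (hKL : K ≤ L) (hn : L ≤ normalizer (K : Set X)) (hK : Cfsg.IsQuasisimple ↥K)
    (e : ↥L ≃* ↥(alternatingGroup β)) : K = L := by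
  have hnot := Cfsg.Agent.Lib.Helper27.qs_not_isSolvable hK
  have hnt := Cfsg.Agent.Lib.Helper27.qs_nontrivial hK
  have hN : (K.subgroupOf L).Normal := (normal_subgroupOf_iff_le_normalizer hKL).mpr hn
  by_cases h5 : 5 ≤ Nat.card β
  · have hs : IsSimpleGroup ↥(alternatingGroup β) := alternatingGroup.isSimpleGroup h5
    have hsL : IsSimpleGroup ↥L := e.isSimpleGroup
    rcases hN.eq_bot_or_eq_top with h | h
    · exfalso
      rw [subgroupOf_eq_bot, inf_eq_left.mpr hKL |> fun h => disjoint_iff.trans (by rw [h])] at h
      exact (nontrivial_iff_ne_bot K).mp hnt h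
    · exact le_antisymm hKL (subgroupOf_eq_top.mp h)
  · exfalso
    apply hnot
    have h4 : Fintype.card β ≤ 4 := by
      rw [Nat.card_eq_fintype_card] at h5; omega
    have h1 : Group.IsSolvable (Perm β) :=
      Cfsg.Agent.Lib.Helper76.isSolvable_perm_of_card_le_four β h4
    exact Group.isSolvable_of_isSolvable_injective
      (f := (alternatingGroup β).subtype.comp (e.toMonoidHom.comp (inclusion hKL)))
      ((alternatingGroup β).subtype_injective.comp (e.injective.comp (inclusion_injective hKL)))

end Cfsg.Agent.Lib.Helper52.S3C
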