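import Mathlib
import Cfsg.Agent.Lib.Helper28.Rel
import Cfsg.Agent.Lib.Helper27.Quasisimple
import Cfsg.Agent.Lib.Helper14.S3CCEN
import Cfsg.Agent.Lib.Helper14.S3CQS
import Cfsg.Agent.Lib.Helper52.S3CSYL
import Cfsg.Agent.Lib.Helper52.S3CALT
import Cfsg.Agent.Lib.Helper52.S3CSIM

set_option autoImplicit false

namespace Cfsg.Agent.Lib.Helper52.S3C

open Equiv Equiv.Perm Subgroup MulAction

open Cfsg.Agent.Lib.Helper28 in
theorem main (n : ℕ) (hn : 5 ≤ n) (H : Subgroup (Equiv.Perm (Fin n)))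
    (hF : Cfsg.IsQuasisimple ↥(Cfsg.generalizedFittingSubgroup ↥H))
    (hS : ∃ P : Sylow 3 (Equiv.Perm (Fin n)), (P : Subgroup (Equiv.Perm (Fin n))) ≤ H) :
    ∃ m : ℕ, (m = n - 2 ∨ m = n - 1 ∨ m = n) ∧
      Nonempty (↥(Cfsg.generalizedFittingSubgroup ↥H) ≃* ↥(alternatingGroup (Fin m))) := by
  classical
  obtain ⟨P, hPH⟩ := hS
  set K : Subgroup (Perm (Fin n)) := fstarIn H with hKdef
  have eK : ↥(Cfsg.generalizedFittingSubgroup ↥H) ≃* ↥K :=
    (Cfsg.generalizedFittingSubgroup ↥H).equivMapOfInjective H.subtype H.subtype_injective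
  have hK : Cfsg.IsQuasisimple ↥K := Cfsg.Agent.Lib.Helper27.qs_of_mulEquiv eK hF
  have hKH : K ≤ H := fstarIn_le H
  -- every 3-cycle of `H` lies in `K`, and `K` is alternating on its support
  have key : ∀ c ∈ H, c.IsThreeCycle → c ∈ K ∧
      Nonempty (↥K ≃* ↥(alternatingGroup (Fin (Nat.card {x : Fin n // ∃ l ∈ K, l x ≠ x})))) := by
    intro c hcH hc
    have hcN : c ∈ normalizer (K : Set (Perm (Fin n))) := le_normalizer_fstarIn H hcH
    have hcC : c ∉ centralizer (K : Set (Perm (Fin n))) := by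
      intro hcC
      have hcK : c ∈ K := inf_centralizer_fstarIn_le H ⟨hcH, hcC⟩
      obtain ⟨x, hx⟩ : ∃ x, c x ≠ x := by
        by_contra hall
        push Not at hall
        have : c = 1 := Equiv.ext hall
        rw [this] at hc
        exact absurd hc (by simp [IsThreeCycle])
      exact hx (cen K hK.1 c hc hcC x hx c hcK)
    obtain ⟨h1, h2⟩ := qs K hK c hcN hcC
    set L := closure {g | ∃ k ∈ K, g = k * c * k⁻¹} with hL
    have hcL : c ∈ L := subset_closure ⟨1, one_mem _, by simp⟩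
    have hLH : L ≤ H := by
      rw [hL, closure_le]
      rintro _ ⟨k, hk, rfl⟩
      exact mul_mem (mul_mem (hKH hk) hcH) (inv_mem (hKH hk))
    obtain ⟨e⟩ := alt L c hc hcL h2
    have hKL : K = L := sim K L h1 (hLH.trans (le_normalizer_fstarIn H)) hK e
    rw [hKL]
    exact ⟨hcL, ⟨e⟩⟩
  obtain ⟨s, hs2, hs⟩ := syl n P
  -- the support of `K` contains the complement of `s`
  have hsupp : ∀ x, x ∉ s → ∃ l ∈ K, l x ≠ x := by
    intro x hx
    obtain ⟨c, hcP, hc, hcx⟩ := hs x hx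
    exact ⟨c, (key c (hPH hcP) hc).1, hcx⟩
  obtain ⟨x₀, hx₀⟩ : ∃ x : Fin n, x ∉ s := by
    by_contra hall
    push Not at hall
    have : (Finset.univ : Finset (Fin n)).card ≤ s.card :=
      Finset.card_le_card (fun x _ => hall x)
    simp at this
    omega
  obtain ⟨c₀, hc₀P, hc₀, _⟩ := hs x₀ hx₀
  obtain ⟨-, ⟨e⟩⟩ := key c₀ (hPH hc₀P) hc₀
  refine ⟨Nat.card {x : Fin n // ∃ l ∈ K, l x ≠ x}, ?_, ⟨eK.trans e⟩⟩
  have hle : Nat.card {x : Fin n // ∃ l ∈ K, l x ≠ x} ≤ n := by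
    have := Finite.card_subtype_le (fun x : Fin n => ∃ l ∈ K, l x ≠ x)
    simpa using this
  have hge : n - 2 ≤ Nat.card {x : Fin n // ∃ l ∈ K, l x ≠ x} := by
    have h1 : Nat.card {x : Fin n // x ∉ s} ≤ Nat.card {x : Fin n // ∃ l ∈ K, l x ≠ x} :=
      Nat.card_le_card_of_injective (fun x => ⟨x.1, hsupp x.1 x.2⟩)
        (fun a b hab => Subtype.ext (congrArg (fun z => z.1) hab))
    have h2 : Nat.card {x : Fin n // x ∉ s} = n - s.card := by
      rw [Nat.card_eq_fintype_card, Fintype.card_subtype_compl]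
      simp
    omega
  omega

end Cfsg.Agent.Lib.Helper52.S3C
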