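import Cfsg.Agent.Lib.Helper39.Trace

set_option autoImplicit false

/-! Refinement of the norm argument of `Helper39.Trace`: the norm condition is only required for
vectors fixed by the normal subgroup of index `p`. -/

namespace Cfsg.Agent.Lib.Helper52

open Cfsg.Agent.Lib.Helper39

open Classical in
theorem orbit_prod_mem_fixed {𝒯 Ω 𝒱 : Type*} [Group 𝒯] [Finite 𝒯] [MulAction 𝒯 Ω] [Fintype Ω]
    [CommGroup 𝒱] [MulDistribMulAction 𝒯 𝒱] {p : ℕ} [hp : Fact p.Prime] (h𝒯 : IsPGroup p 𝒯)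
    (B : Subgroup 𝒱)
    (hN : ∀ N : Subgroup 𝒯, N.Normal → N.index = p → ∃ γ : 𝒯, γ ∉ N ∧
      ∀ v : 𝒱, (∀ n ∈ N, n • v = v) → ∏ j ∈ Finset.range p, γ ^ j • v ∈ B)
    (f : Ω → 𝒱) (hf : ∀ (t : 𝒯) (ω : Ω), f (t • ω) = t • f ω)
    (ω0 : Ω) (hω0 : ∃ t : 𝒯, t • ω0 ≠ ω0) :
    ∏ ω ∈ Finset.univ.filter (fun ω => ω ∈ MulAction.orbit 𝒯 ω0), f ω ∈ B := by
  have hK : MulAction.stabilizer 𝒯 ω0 ≠ ⊤ := by
    intro h
    obtain ⟨t, ht⟩ := hω0
    apply ht
    have : t ∈ MulAction.stabilizer 𝒯 ω0 := by rw [h]; exact Subgroup.mem_top t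
    exact this
  obtain ⟨N, hKN, hNn, hidx⟩ := exists_normal_index_p h𝒯 _ hK
  obtain ⟨γ, hγN, hγ⟩ := hN N hNn hidx
  obtain ⟨hcov, hinj⟩ := coset_facts N hidx γ hγN
  set O0 : Finset Ω := Finset.univ.filter (fun ω => ∃ n ∈ N, n • ω0 = ω) with hO0
  have key : ∏ j ∈ Finset.range p, γ ^ j • (∏ ω ∈ O0, f ω)
      = ∏ ω ∈ Finset.univ.filter (fun ω => ω ∈ MulAction.orbit 𝒯 ω0), f ω := by
    calc ∏ j ∈ Finset.range p, γ ^ j • (∏ ω ∈ O0, f ω)
        = ∏ j ∈ Finset.range p, ∏ ω ∈ O0, f (γ ^ j • ω) := by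
          simp only [Finset.smul_prod', hf]
      _ = ∏ x ∈ Finset.range p ×ˢ O0, f (γ ^ x.1 • x.2) := (Finset.prod_product' _ _ _).symm
      _ = ∏ ω ∈ Finset.univ.filter (fun ω => ω ∈ MulAction.orbit 𝒯 ω0), f ω := by
          apply Finset.prod_nbij (fun x => γ ^ x.1 • x.2)
          · rintro ⟨j, ω⟩ hx
            simp only [hO0, Finset.mem_product, Finset.mem_filter, Finset.mem_univ, true_and] at hx ⊢
            obtain ⟨-, n, -, rfl⟩ := hx
            exact ⟨γ ^ j * n, mul_smul _ _ _⟩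
          · rintro ⟨i, ω⟩ hx ⟨j, ω'⟩ hx' heq
            simp only [hO0, Finset.coe_product, Set.mem_prod, Finset.mem_coe, Finset.mem_range,
              Finset.mem_filter, Finset.mem_univ, true_and] at hx hx'
            obtain ⟨hi, n, hn, rfl⟩ := hx
            obtain ⟨hj, n', hn', rfl⟩ := hx'
            simp only at heq
            have h1 : n'⁻¹ * ((γ ^ j)⁻¹ * γ ^ i) * n ∈ MulAction.stabilizer 𝒯 ω0 := by
              rw [MulAction.mem_stabilizer_iff, mul_smul, mul_smul, mul_smul, heq, inv_smul_smul,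
                inv_smul_smul]
            have h2 := hKN h1
            have h3 : (γ ^ j)⁻¹ * γ ^ i ∈ N := by
              have := N.mul_mem (N.mul_mem hn' h2) (N.inv_mem hn)
              have e : n' * (n'⁻¹ * ((γ ^ j)⁻¹ * γ ^ i) * n) * n⁻¹ = (γ ^ j)⁻¹ * γ ^ i := by group
              rwa [e] at this
            have hij := hinj i hi j hj h3
            subst hij
            rw [smul_left_cancel_iff] at heq
            rw [heq]
          · intro ω hω
            simp only [Finset.coe_filter, Finset.mem_univ, true_and, Set.mem_ofPred_eq] at hω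
            obtain ⟨t, rfl⟩ := hω
            obtain ⟨j, hj, hjt⟩ := hcov t
            refine ⟨(j, ((γ ^ j)⁻¹ * t) • ω0), ?_, ?_⟩
            · simp only [hO0, Finset.coe_product, Set.mem_prod, Finset.mem_coe, Finset.mem_range,
                Finset.mem_filter, Finset.mem_univ, true_and]
              exact ⟨hj, _, hjt, rfl⟩
            · simp only [mul_smul, smul_inv_smul]
          · intro x _; rfl
  rw [← key]
  apply hγ
  intro n hn
  rw [Finset.smul_prod']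
  simp only [← hf]
  apply Finset.prod_equiv (MulAction.toPerm n)
  · intro ω
    simp only [hO0, Finset.mem_filter, Finset.mem_univ, true_and, MulAction.toPerm_apply]
    constructor
    · rintro ⟨m, hm, rfl⟩
      exact ⟨n * m, N.mul_mem hn hm, mul_smul _ _ _⟩
    · rintro ⟨m, hm, hmω⟩
      refine ⟨n⁻¹ * m, N.mul_mem (N.inv_mem hn) hm, ?_⟩
      rw [mul_smul, hmω, inv_smul_smul]
  · intro ω _; rfl

open Classical in
theorem prod_div_fixed_mem_fixed {𝒯 Ω 𝒱 : Type*} [Group 𝒯] [Finite 𝒯] [MulAction 𝒯 Ω] [Fintype Ω]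
    [CommGroup 𝒱] [MulDistribMulAction 𝒯 𝒱] {p : ℕ} [hp : Fact p.Prime] (h𝒯 : IsPGroup p 𝒯)
    (B : Subgroup 𝒱)
    (hN : ∀ N : Subgroup 𝒯, N.Normal → N.index = p → ∃ γ : 𝒯, γ ∉ N ∧
      ∀ v : 𝒱, (∀ n ∈ N, n • v = v) → ∏ j ∈ Finset.range p, γ ^ j • v ∈ B)
    (f : Ω → 𝒱) (hf : ∀ (t : 𝒯) (ω : Ω), f (t • ω) = t • f ω)
    (ω1 : Ω) (hfix : ∀ t : 𝒯, t • ω1 = ω1) (huniq : ∀ ω : Ω, (∀ t : 𝒯, t • ω = ω) → ω = ω1) :
    (∏ ω, f ω) / f ω1 ∈ B := by
  set π : Ω → MulAction.orbitRel.Quotient 𝒯 Ω := Quotient.mk _ with hπ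
  have hπiff : ∀ ω ω' : Ω, π ω = π ω' ↔ ω ∈ MulAction.orbit 𝒯 ω' := by
    intro ω ω'
    rw [hπ, Quotient.eq, MulAction.orbitRel_apply]
  rw [← Finset.prod_fiberwise Finset.univ π f, ← Finset.mul_prod_erase Finset.univ _ (Finset.mem_univ (π ω1))]
  have h1 : ∏ ω with π ω = π ω1, f ω = f ω1 := by
    have : Finset.univ.filter (fun ω => π ω = π ω1) = {ω1} := by
      ext ω
      simp only [Finset.mem_filter, Finset.mem_univ, true_and, Finset.mem_singleton, hπiff]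
      constructor
      · rintro ⟨t, rfl⟩; exact hfix t
      · rintro rfl; exact MulAction.mem_orbit_self _
    rw [this, Finset.prod_singleton]
  rw [h1, mul_div_cancel_left]
  apply Subgroup.prod_mem
  intro o ho
  obtain ⟨ω0, rfl⟩ := Quotient.exists_rep o
  have hne : π ω0 ≠ π ω1 := Finset.ne_of_mem_erase ho
  have h2 : ∃ t : 𝒯, t • ω0 ≠ ω0 := by
    by_contra hcon
    push Not at hcon
    exact hne (by rw [huniq ω0 hcon])
  have h3 := orbit_prod_mem_fixed h𝒯 B hN f hf ω0 h2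
  have h4 : Finset.univ.filter (fun ω => π ω = π ω0)
      = Finset.univ.filter (fun ω => ω ∈ MulAction.orbit 𝒯 ω0) := by
    ext ω
    simp only [Finset.mem_filter, Finset.mem_univ, true_and, hπiff]
  change ∏ ω with π ω = π ω0, f ω ∈ B
  rw [h4]; exact h3

theorem trace_congr_fixed {𝓗 𝒱 : Type*} [Group 𝓗] [Finite 𝓗] [CommGroup 𝒱]
    [MulDistribMulAction 𝓗 𝒱]
    {p : ℕ} [Fact p.Prime] (M P : Subgroup 𝓗) (hP : IsPGroup p P) (hPM : P ≤ M)
    (hfix : ∀ h : 𝓗, (∀ t ∈ P, h⁻¹ * t * h ∈ M) → h ∈ M)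
    (B : Subgroup 𝒱)
    (hN : ∀ N : Subgroup P, N.Normal → N.index = p → ∃ γ : P, γ ∉ N ∧
      ∀ v : 𝒱, (∀ n ∈ N, n • v = v) → ∏ j ∈ Finset.range p, γ ^ j • v ∈ B)
    (y : 𝒱) (hy : ∀ m ∈ M, m • y = y) :
    ∃ z : 𝒱, (∀ h : 𝓗, h • z = z) ∧ z / y ∈ B := by
  classical
  let _ : Fintype (𝓗 ⧸ M) := Fintype.ofFinite _
  let f : 𝓗 ⧸ M → 𝒱 := fun ω => Quotient.liftOn' ω (fun h => h • y) (by
    intro a b hab
    rw [QuotientGroup.leftRel_apply] at hab
    have := hy _ hab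
    change a • y = b • y
    rw [mul_smul] at this
    calc a • y = a • (a⁻¹ • b • y) := by rw [this]
      _ = b • y := smul_inv_smul _ _)
  have hfmk : ∀ h : 𝓗, f (h : 𝓗 ⧸ M) = h • y := fun h => rfl
  have hf : ∀ (h : 𝓗) (ω : 𝓗 ⧸ M), f (h • ω) = h • f ω := by
    intro h ω
    induction ω using QuotientGroup.induction_on with
    | H k =>
      rw [MulAction.Quotient.smul_coe, hfmk, hfmk, smul_eq_mul, mul_smul]
  refine ⟨∏ ω, f ω, ?_, ?_⟩
  · intro h
    rw [Finset.smul_prod']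
    simp only [← hf]
    exact Equiv.prod_comp (MulAction.toPerm h) f
  · have := prod_div_fixed_mem_fixed (𝒯 := ↥P) (Ω := 𝓗 ⧸ M) hP B
      hN f (fun t ω => hf t ω) ((1 : 𝓗) : 𝓗 ⧸ M) ?_ ?_
    · rwa [hfmk, one_smul] at this
    · intro t
      change (((t : 𝓗) * 1 : 𝓗) : 𝓗 ⧸ M) = _
      rw [mul_one, QuotientGroup.eq, mul_one]
      exact M.inv_mem (hPM t.2)
    · intro ω hω
      induction ω using QuotientGroup.induction_on with
      | H k =>
        rw [QuotientGroup.eq, mul_one]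
        apply M.inv_mem
        apply hfix
        intro t ht
        have : ((t * k : 𝓗) : 𝓗 ⧸ M) = (k : 𝓗 ⧸ M) := hω ⟨t, ht⟩
        rw [eq_comm, QuotientGroup.eq] at this
        rw [mul_assoc]; exact this

end Cfsg.Agent.Lib.Helper52
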